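import Cfsg.Agent.H604.OZ.Basic
import Cfsg.Agent.H733.OZ.Good
import Cfsg.Agent.H849.OZ.Bad
import Cfsg.Agent.CharactersDeep.PElem

/-!
# One vanishing class: `r`-sections (T6, helper604, for the sporadic rows of S4842)

`sec y r` : the elements `w u`, `w` conjugate to `y`, `u` of order prime to `r` commuting with `w` (the `r`-section of the
`r`-element `y`).  With `|C(y)|_r = r ^ m`, `y` rational:

* `sum_sec_int`  : `r ^ m * ∑ |χ| ^ 2 = |G| * k` over the section, `k` an integer;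
* `sec_lower`    : `r ∣ χ(1)`, `χ` nonzero on the section: `|section| + |G| / r ^ m ≤ ∑ |χ| ^ 2`;
* `excess_sums`  : disjoint Galois-stable sets, the sum over `Y i` at least `|Y i| + e i`: `c ∑ e i ≤ |G|`;
* `two_secs`     : two disjoint sections: `c (1 / |C(y)|_r + 1 / |C(z)|_s) ≤ 1`.
-/

set_option autoImplicit false
set_option linter.unusedSectionVars false

open Cfsg Cfsg.Agent.Characters Cfsg.Agent.H686.CharKit Cfsg.Agent.H732.VZ Cfsg.Agent.H733.OZ

namespace Cfsg.Agent.H604.OZ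

universe u

section shift

variable {C : Type u} [Group C] [Fintype C]

/-- the sum of a character over the regular elements -/
theorem sum_reg_irr (μ : IrrCharacter C) {r n : ℕ} (hr : r.Prime) (h1 : r ^ n ∣ Nat.card C)
    (h2 : ¬ r ^ (n + 1) ∣ Nat.card C) :
    ∃ k : ℤ, (r ^ n : ℂ) * ∑ g ∈ reg C r, (μ : C → ℂ) g = Nat.card C * k := by
  classical
  have : Fact r.Prime := ⟨hr⟩
  have hn : (Nat.card C).factorization r = n := by
    have hN : Nat.card C ≠ 0 := Nat.card_pos.ne'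
    have h3 := (hr.pow_dvd_iff_le_factorization hN).1 h1
    have h4 := (hr.pow_dvd_iff_le_factorization hN).not.1 h2
    omega
  have h3 := S0961.result r μ
  rw [hn] at h3
  obtain ⟨a, b, ha, hb, hab⟩ := Core.isGeneralizedCharacter_def.1 h3
  obtain ⟨m1, hm1⟩ := Core.classInner_isNat ha (Core.isCharacter_one (G := C))
  obtain ⟨m2, hm2⟩ := Core.classInner_isNat hb (Core.isCharacter_one (G := C))
  have h4 : classInner (fun x : C => if r ∣ orderOf x then 0
      else ((r ^ n : ℕ) : ℂ) * (μ : C → ℂ) x) (1 : C → ℂ) = (m1 : ℂ) - m2 := by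
    rw [hab, Core.classInner_sub_left, hm1, hm2]
  unfold classInner at h4
  have hG : (Nat.card C : ℂ) ≠ 0 := by exact_mod_cast Nat.card_pos.ne'
  have h5 : ∑ g : C, (if r ∣ orderOf g then 0 else ((r ^ n : ℕ) : ℂ) * (μ : C → ℂ) g)
      * (starRingEnd ℂ) ((1 : C → ℂ) g) = (Nat.card C : ℂ) * ((m1 : ℂ) - m2) := by
    rw [← h4]
    field_simp
  refine ⟨(m1 : ℤ) - m2, ?_⟩
  push_cast
  rw [← h5, reg, Finset.sum_filter, Finset.mul_sum]
  refine Finset.sum_congr rfl fun g _ => ?_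
  by_cases hg : r ∣ orderOf g
  · simp [hg]
  · rw [if_pos hg, if_neg hg]
    push_cast
    simp

/-- the sum of a shifted character over the regular elements -/
theorem sum_shift {ψ : C → ℂ} (hψ : IsCharacter C ψ) {y : C} (hy : y ∈ Subgroup.center C) {r n : ℕ} (hr : r.Prime)
    (h1 : r ^ n ∣ Nat.card C) (h2 : ¬ r ^ (n + 1) ∣ Nat.card C) :
    ∃ α : ℂ, IsIntegral ℤ α ∧ (r ^ n : ℂ) * ∑ g ∈ reg C r, ψ (y * g) = Nat.card C * α := by
  classical
  have hfin : Finite (IrrCharacter C) := Core.finite_irr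
  have := Fintype.ofFinite (IrrCharacter C)
  obtain ⟨m, rfl⟩ := Core.isCharacter_iff.1 hψ
  choose ω hω hω' using fun μ : IrrCharacter C => CharactersDeep.PElem.exists_central_scalar μ.2 hy
  choose k hk using fun μ : IrrCharacter C => sum_reg_irr μ hr h1 h2
  refine ⟨∑ μ : IrrCharacter C, (m μ : ℂ) * (ω μ * k μ), ?_, ?_⟩
  · refine IsIntegral.sum _ fun μ _ => ?_
    refine IsIntegral.mul ?_ ((hω μ).mul ?_)
    · simpa using isIntegral_algebraMap (R := ℤ) (A := ℂ) (x := (m μ : ℤ))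
    · simpa using isIntegral_algebraMap (R := ℤ) (A := ℂ) (x := k μ)
  · have h3 : ∀ g, (∑ μ : IrrCharacter C, m μ • (μ : C → ℂ)) (y * g)
        = ∑ μ : IrrCharacter C, (m μ : ℂ) * (ω μ * (μ : C → ℂ) g) := by
      intro g
      rw [Finset.sum_apply]
      refine Finset.sum_congr rfl fun μ _ => ?_
      rw [Pi.smul_apply, nsmul_eq_mul, hω' μ g]
    rw [Finset.sum_congr rfl fun g _ => h3 g, Finset.sum_comm, Finset.mul_sum, Finset.mul_sum]
    refine Finset.sum_congr rfl fun μ _ => ?_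
    rw [← Finset.mul_sum, ← Finset.mul_sum]
    linear_combination ((m μ : ℂ) * ω μ) * hk μ

end shift

section sec

variable {G : Type u} [Group G] [Fintype G] [DecidableEq G]

/-- the `r`-section of `y` -/
noncomputable def sec (y : G) (r : ℕ) : Finset G := by
  classical
  exact Finset.univ.filter fun g => ∃ w u : G, IsConj y w ∧ Commute w u ∧ ¬ r ∣ orderOf u ∧ g = w * u

theorem mem_sec {y g : G} {r : ℕ} : g ∈ sec y r ↔ ∃ w u : G, IsConj y w ∧ Commute w u ∧ ¬ r ∣ orderOf u ∧ g = w * u := by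
  classical
  simp [sec]

theorem self_mem_sec {y w : G} {r : ℕ} (hr : r.Prime) (h : IsConj y w) : w ∈ sec y r :=
  mem_sec.2 ⟨w, 1, h, Commute.one_right w, by rw [orderOf_one]; exact fun h => hr.one_lt.ne' (Nat.dvd_one.1 h),
    (mul_one w).symm⟩

/-- the exponent of the `r`-part -/
theorem exists_exp (G : Type u) [Group G] [Finite G] {r : ℕ} (hr : r.Prime) : ∃ k : ℕ,
    (∀ w : G, (∃ n, orderOf w = r ^ n) → w ^ k = w) ∧ ∀ u : G, ¬ r ∣ orderOf u → u ^ k = 1 := by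
  obtain ⟨n, m, hm, hN⟩ := Nat.exists_eq_pow_mul_and_not_dvd (Nat.card_pos (α := G)).ne' r hr.ne_one
  have hcop : Nat.Coprime (r ^ n) m := Nat.Coprime.pow_left n ((Nat.Prime.coprime_iff_not_dvd hr).2 hm)
  obtain ⟨k, hk1, hk2⟩ := Nat.chineseRemainder hcop 1 0
  refine ⟨k, fun w hw => ?_, fun u hu => ?_⟩
  · obtain ⟨a, ha⟩ := hw
    have h1 : orderOf w ∣ r ^ n := by
      have h2 : orderOf w ∣ r ^ n * m := hN ▸ orderOf_dvd_natCard w
      rw [ha] at h2 ⊢
      exact (Nat.Coprime.dvd_of_dvd_mul_right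
        (Nat.Coprime.pow_left a ((Nat.Prime.coprime_iff_not_dvd hr).2 hm)) h2)
    conv_rhs => rw [← pow_one w]
    exact pow_eq_pow_iff_modEq.2 (hk1.of_dvd h1)
  · have h1 : orderOf u ∣ m := by
      have h2 : orderOf u ∣ r ^ n * m := hN ▸ orderOf_dvd_natCard u
      exact Nat.Coprime.dvd_of_dvd_mul_left
        ((Nat.Coprime.pow_left n ((Nat.Prime.coprime_iff_not_dvd hr).2 hu)).symm) h2
    rw [← pow_zero u]
    exact pow_eq_pow_iff_modEq.2 (hk2.of_dvd h1)

theorem orderOf_conj_pow {y w : G} {r : ℕ} (hy : ∃ n, orderOf y = r ^ n) (h : IsConj y w) : ∃ n, orderOf w = r ^ n := by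
  obtain ⟨n, hn⟩ := hy
  exact ⟨n, by rw [← orderOf_eq_of_conj h, hn]⟩

/-- **Sums over a section.** -/
theorem sum_sec {y : G} {r : ℕ} (hr : r.Prime) (hy : ∃ n, orderOf y = r ^ n) {f : G → ℝ}
    (hf : ∀ g h : G, f (h * g * h⁻¹) = f g) [Fintype (Subgroup.centralizer ({y} : Set G))] :
    (cent y : ℝ) * ∑ g ∈ sec y r, f g
      = Nat.card G * ∑ u ∈ reg (Subgroup.centralizer ({y} : Set G)) r, f (y * u) := by
  classical
  obtain ⟨k, hk1, hk2⟩ := exists_exp G hr
  -- the fibre over `w`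
  let S : G → Finset G := fun w => Finset.univ.filter fun u => Commute w u ∧ ¬ r ∣ orderOf u
  have hS : ∀ w u, u ∈ S w ↔ Commute w u ∧ ¬ r ∣ orderOf u := by intro w u; simp [S]
  let K : Finset G := Finset.univ.filter fun w => IsConj y w
  have hK : ∀ w, w ∈ K ↔ IsConj y w := by intro w; simp [K]
  have hpart : ∀ w ∈ K, ∀ u ∈ S w, (w * u) ^ k = w := by
    intro w hw u hu
    rw [hS] at hu
    rw [hu.1.mul_pow, hk1 w (orderOf_conj_pow hy ((hK w).1 hw)), hk2 u hu.2, mul_one]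
  have h1 : sec y r = K.biUnion fun w => (S w).image fun u => w * u := by
    ext g
    rw [mem_sec, Finset.mem_biUnion]
    constructor
    · rintro ⟨w, u, hw, hc, hu, rfl⟩
      exact ⟨w, (hK w).2 hw, Finset.mem_image.2 ⟨u, (hS w u).2 ⟨hc, hu⟩, rfl⟩⟩
    · rintro ⟨w, hw, hg⟩
      obtain ⟨u, hu, rfl⟩ := Finset.mem_image.1 hg
      exact ⟨w, u, (hK w).1 hw, ((hS w u).1 hu).1, ((hS w u).1 hu).2, rfl⟩
  have h2 : ∑ g ∈ sec y r, f g = ∑ w ∈ K, ∑ u ∈ S w, f (w * u) := by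
    rw [h1, Finset.sum_biUnion]
    · refine Finset.sum_congr rfl fun w _ => ?_
      rw [Finset.sum_image]
      intro a _ b _ hab
      exact mul_left_cancel hab
    · intro w hw w' hw' hne
      rw [Function.onFun, Finset.disjoint_left]
      intro g hg hg'
      obtain ⟨u, hu, rfl⟩ := Finset.mem_image.1 hg
      obtain ⟨u', hu', he⟩ := Finset.mem_image.1 hg'
      apply hne
      rw [← hpart w hw u hu, ← hpart w' hw' u' hu']
      exact congrArg (fun t => t ^ k) he.symm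
  have h3 : ∀ w ∈ K, ∑ u ∈ S w, f (w * u) = ∑ u ∈ S y, f (y * u) := by
    intro w hw
    obtain ⟨h, rfl⟩ := isConj_iff.1 ((hK w).1 hw)
    refine Finset.sum_nbij' (fun u => h⁻¹ * u * h) (fun u => h * u * h⁻¹) ?_ ?_ ?_ ?_ ?_
    · intro u hu
      rw [hS] at hu ⊢
      constructor
      · have h4 := hu.1.eq
        show y * (h⁻¹ * u * h) = h⁻¹ * u * h * y
        calc y * (h⁻¹ * u * h) = h⁻¹ * ((h * y * h⁻¹) * u) * h := by group
          _ = h⁻¹ * (u * (h * y * h⁻¹)) * h := by rw [h4]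
          _ = h⁻¹ * u * h * y := by group
      · have h4 : orderOf (h⁻¹ * u * h) = orderOf u := by
          have := orderOf_eq_of_conj (isConj_iff.2 ⟨h⁻¹, rfl⟩ : IsConj u (h⁻¹ * u * (h⁻¹)⁻¹))
          rw [inv_inv] at this
          exact this.symm
        rw [h4]
        exact hu.2
    · intro u hu
      rw [hS] at hu ⊢
      constructor
      · have h4 := hu.1.eq
        show h * y * h⁻¹ * (h * u * h⁻¹) = h * u * h⁻¹ * (h * y * h⁻¹)
        calc h * y * h⁻¹ * (h * u * h⁻¹) = h * (y * u) * h⁻¹ := by group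
          _ = h * (u * y) * h⁻¹ := by rw [h4]
          _ = _ := by group
      · rw [← orderOf_eq_of_conj (isConj_iff.2 ⟨h, rfl⟩ : IsConj u (h * u * h⁻¹))]
        exact hu.2
    · intro u _
      show h * (h⁻¹ * u * h) * h⁻¹ = u
      group
    · intro u _
      show h⁻¹ * (h * u * h⁻¹) * h = u
      group
    · intro u _
      rw [← hf (y * (h⁻¹ * u * h)) h]
      congr 1
      group
  have h4 : ∑ u ∈ S y, f (y * u) = ∑ u ∈ reg (Subgroup.centralizer ({y} : Set G)) r, f (y * u) := by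
    symm
    refine Finset.sum_bij (fun u _ => (u : G)) ?_ ?_ ?_ ?_
    · intro u hu
      rw [mem_reg] at hu
      rw [hS]
      exact ⟨(Subgroup.mem_centralizer_singleton_iff.1 u.2).symm, by rwa [Subgroup.orderOf_coe]⟩
    · intro a _ b _ h
      exact Subtype.ext h
    · intro u hu
      rw [hS] at hu
      refine ⟨⟨u, Subgroup.mem_centralizer_singleton_iff.2 hu.1.eq.symm⟩, ?_, rfl⟩
      rw [mem_reg, Subgroup.orderOf_mk]
      exact hu.2
    · intro u _
      rfl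
  have h5 := H849.OZ.card_class y
  have h6 : (K.card : ℝ) * cent y = Nat.card G := by
    rw [← h5]
    push_cast
    rfl
  rw [h2, Finset.sum_congr rfl h3, Finset.sum_const, nsmul_eq_mul, h4, ← h6]
  ring

/-- the section of a rational element is Galois-stable -/
theorem gal_sec {y : G} (hy : ∀ m : ℕ, m.Coprime (Nat.card G) → IsConj (y ^ m) y) (r : ℕ) :
    H695.OneZero.Gal (sec y r) := by
  intro g hg k hk
  rw [mem_sec] at hg ⊢
  obtain ⟨w, u, hw, hc, hu, rfl⟩ := hg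
  refine ⟨w ^ k, u ^ k, (hy k hk).symm.trans (H849.OZ.isConj_pow hw k), hc.pow_pow k k, ?_, hc.mul_pow k⟩
  rwa [orderOf_pow_of_coprime hk]

/-- **Integrality over a section.** -/
theorem sum_sec_int (χ : IrrCharacter G) {y : G} {r m : ℕ} (hr : r.Prime) (hy : ∃ n, orderOf y = r ^ n)
    (hrat : ∀ m : ℕ, m.Coprime (Nat.card G) → IsConj (y ^ m) y) (h1 : r ^ m ∣ cent y) (h2 : ¬ r ^ (m + 1) ∣ cent y) :
    ∃ k : ℤ, (r ^ m : ℝ) * ∑ g ∈ sec y r, Complex.normSq ((χ : G → ℂ) g) = Nat.card G * k := by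
  classical
  have := Fintype.ofFinite (Subgroup.centralizer ({y} : Set G))
  set Y := sec y r with hY
  have hgal : H695.OneZero.Gal Y := gal_sec hrat r
  set S : ℝ := ∑ g ∈ Y, Complex.normSq ((χ : G → ℂ) g) with hS
  have hχ := Core.isIrr_isCharacter χ.2
  -- the character of the centralizer
  have hψ : IsCharacter (Subgroup.centralizer ({y} : Set G))
      (fun u => (χ : G → ℂ) u * (starRingEnd ℂ) ((χ : G → ℂ) u)) := by
    have h3 := Core.isCharacter_mul hχ (Core.isCharacter_conj hχ)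
    exact Core.isCharacter_comp (Subgroup.centralizer ({y} : Set G)).subtype h3
  have hyc : (⟨y, by rw [Subgroup.mem_centralizer_singleton_iff]⟩ : Subgroup.centralizer ({y} : Set G)) ∈
      Subgroup.center (Subgroup.centralizer ({y} : Set G)) := by
    rw [Subgroup.mem_center_iff]
    intro u
    exact Subtype.ext (Subgroup.mem_centralizer_singleton_iff.1 u.2)
  obtain ⟨α, hα, hsum⟩ := sum_shift hψ hyc hr h1 h2
  have hcast : (∑ g ∈ reg (Subgroup.centralizer ({y} : Set G)) r, (χ : G → ℂ) (y * g) *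
      (starRingEnd ℂ) ((χ : G → ℂ) (y * g)) : ℂ) =
      ((∑ g ∈ reg (Subgroup.centralizer ({y} : Set G)) r, Complex.normSq ((χ : G → ℂ) (y * g)) : ℝ) : ℂ) := by
    push_cast
    exact Finset.sum_congr rfl fun g _ => Complex.mul_conj _
  have hsum' : (r ^ m : ℂ) * ((∑ g ∈ reg (Subgroup.centralizer ({y} : Set G)) r,
      Complex.normSq ((χ : G → ℂ) (y * g)) : ℝ) : ℂ) = (cent y : ℂ) * α := by
    rw [← hcast]
    exact hsum
  have hB := sum_sec hr hy (f := fun g => Complex.normSq ((χ : G → ℂ) g)) (fun g h => by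
    show Complex.normSq ((χ : G → ℂ) (h * g * h⁻¹)) = Complex.normSq ((χ : G → ℂ) g)
    rw [Core.isIrr_isClassFunction χ.2 g h])
  have hG : (Nat.card G : ℂ) ≠ 0 := by exact_mod_cast Nat.card_pos.ne'
  have hC : (cent y : ℂ) ≠ 0 := by
    have : 0 < cent y := Nat.card_pos
    exact_mod_cast this.ne'
  -- `r ^ m * S = |G| * α`
  have hSα : (r ^ m : ℂ) * (S : ℂ) = Nat.card G * α := by
    have hB' : (cent y : ℂ) * (S : ℂ) = Nat.card G * ((∑ g ∈ reg (Subgroup.centralizer ({y} : Set G)) r,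
        Complex.normSq ((χ : G → ℂ) (y * g)) : ℝ) : ℂ) := by
      exact_mod_cast hB
    apply mul_left_cancel₀ hC
    linear_combination (r ^ m : ℂ) * hB' + (Nat.card G : ℂ) * hsum'
  have hαeq : α = (r ^ m : ℂ) * (S : ℂ) / Nat.card G := by
    rw [hSα]
    field_simp
  -- `S` is fixed
  have hfix : ∀ σ : ℂ ≃+* ℂ, σ (S : ℂ) = S := by
    intro σ
    obtain ⟨k, hk, hσ⟩ := GaloisBasic.exists_pow_of_ringEquiv (G := G) σ
    have h3 : (S : ℂ) = ∑ g ∈ Y, (χ : G → ℂ) g * (starRingEnd ℂ) ((χ : G → ℂ) g) := by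
      rw [hS]
      push_cast
      exact Finset.sum_congr rfl fun g _ => (Complex.mul_conj _).symm
    have h4 : σ (S : ℂ) = ∑ g ∈ Y, (χ : G → ℂ) (g ^ k) * (starRingEnd ℂ) ((χ : G → ℂ) (g ^ k)) := by
      rw [h3, map_sum]
      refine Finset.sum_congr rfl fun g _ => ?_
      rw [map_mul, hσ _ hχ g]
      congr 1
      exact hσ _ (Core.isCharacter_conj hχ) g
    have h5 : (∑ g ∈ Y, (χ : G → ℂ) (g ^ k) * (starRingEnd ℂ) ((χ : G → ℂ) (g ^ k)) : ℂ) =
        ((∑ g ∈ Y, Complex.normSq ((χ : G → ℂ) (g ^ k)) : ℝ) : ℂ) := by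
      push_cast
      exact Finset.sum_congr rfl fun g _ => Complex.mul_conj _
    rw [h4, h5, hgal.sum_pow hk fun g => Complex.normSq ((χ : G → ℂ) g)]
  obtain ⟨k, hk⟩ := GaloisBasic.exists_int_of_isIntegral hα
    (GaloisBasic.exists_rat_of_forall_ringEquiv hα.tower_top (fun σ => by
      rw [hαeq, map_div₀, map_mul, hfix σ, map_pow, map_natCast, map_natCast]))
  refine ⟨k, ?_⟩
  rw [hk] at hSα
  exact_mod_cast hSα

/-- **T6.** -/
theorem sec_lower {χ : IrrCharacter G} {y : G} {r m : ℕ} (hr : r.Prime) (hy : ∃ n, orderOf y = r ^ n)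
    (hrat : ∀ m : ℕ, m.Coprime (Nat.card G) → IsConj (y ^ m) y) (h1 : r ^ m ∣ cent y) (h2 : ¬ r ^ (m + 1) ∣ cent y)
    (hd : r ∣ charDegree (χ : G → ℂ)) (h0 : ∀ g ∈ sec y r, (χ : G → ℂ) g ≠ 0) :
    ((sec y r).card : ℝ) + Nat.card G / r ^ m ≤ ∑ g ∈ sec y r, Complex.normSq ((χ : G → ℂ) g) := by
  classical
  obtain ⟨k, hk⟩ := sum_sec_int χ hr hy hrat h1 h2
  obtain ⟨k', hk'⟩ := sum_sec_int (⟨1, Core.isIrr_one⟩ : IrrCharacter G) hr hy hrat h1 h2
  have h3 : ∑ g ∈ sec y r, Complex.normSq (((⟨1, Core.isIrr_one⟩ : IrrCharacter G) : G → ℂ) g)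
      = (sec y r).card := by
    rw [Finset.card_eq_sum_ones, Nat.cast_sum]
    exact Finset.sum_congr rfl fun g _ => by simp
  rw [h3] at hk'
  set S : ℝ := ∑ g ∈ sec y r, Complex.normSq ((χ : G → ℂ) g) with hS
  -- the class of `y`
  let K : Finset G := (sec y r).filter fun g => IsConj y g
  have hKgal : H695.OneZero.Gal K := by
    intro g hg k hk
    rw [Finset.mem_filter] at hg ⊢
    exact ⟨gal_sec hrat r g hg.1 k hk, (hrat k hk).symm.trans (H849.OZ.isConj_pow hg.2 k)⟩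
  have hK'gal : H695.OneZero.Gal (sec y r \ K) := by
    have : sec y r \ K = sec y r ∩ Kᶜ := by
      ext g
      simp
    rw [this]
    exact (gal_sec hrat r).inter hKgal.compl
  have hlow := H695.OneZero.card_le χ hK'gal fun g hg => h0 g (Finset.mem_sdiff.1 hg).1
  have hsub : K ⊆ sec y r := Finset.filter_subset _ _
  have hsplit := Finset.sum_sdiff hsub (f := fun g => Complex.normSq ((χ : G → ℂ) g))
  have hcs := Finset.card_sdiff_add_card_eq_card hsub
  have hyK : y ∈ K := by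
    rw [Finset.mem_filter]
    exact ⟨self_mem_sec hr (IsConj.refl y), IsConj.refl y⟩
  obtain ⟨a, ha⟩ := H849.OZ.rat (χ := χ) hrat
  have hra := H849.OZ.rat_dvd_prime hr hd hy ha
  have ha0 : a ≠ 0 := by
    rintro rfl
    exact h0 y (Finset.mem_of_mem_filter _ hyK) (by rw [ha]; simp)
  have ha2 : (4 : ℤ) ≤ a ^ 2 := by
    have h4 : (r : ℤ) ≤ |a| := Int.le_of_dvd (abs_pos.2 ha0) ((dvd_abs _ _).2 hra)
    have h5 : (2 : ℤ) ≤ r := by exact_mod_cast hr.two_le
    rw [← sq_abs]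
    nlinarith
  have hval : ∀ g ∈ K, Complex.normSq ((χ : G → ℂ) g) = (a : ℝ) ^ 2 := by
    intro g hg
    rw [← Core.classFunction_apply_eq (Core.isIrr_isClassFunction χ.2) (Finset.mem_filter.1 hg).2, ha,
      Complex.normSq_intCast, pow_two]
  have hKsum : ∑ g ∈ K, Complex.normSq ((χ : G → ℂ) g) = K.card * (a : ℝ) ^ 2 := by
    rw [Finset.sum_congr rfl hval, Finset.sum_const, nsmul_eq_mul]
  have hKpos : (1 : ℝ) ≤ K.card := by
    have : 0 < K.card := Finset.card_pos.2 ⟨y, hyK⟩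
    exact_mod_cast this
  have ha2' : (4 : ℝ) ≤ (a : ℝ) ^ 2 := by exact_mod_cast ha2
  have hcs' : ((sec y r \ K).card : ℝ) + K.card = (sec y r).card := by exact_mod_cast hcs
  have hgt : ((sec y r).card : ℝ) < S := by
    rw [hS, ← hsplit, hKsum]
    nlinarith
  have hNpos : (0 : ℝ) < Nat.card G := by exact_mod_cast Nat.card_pos
  have hrpos : (0 : ℝ) < (r : ℝ) ^ m := by
    have := hr.pos
    positivity
  have h6 : (r : ℝ) ^ m * (S - (sec y r).card) = Nat.card G * ((k - k' : ℤ) : ℝ) := by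
    push_cast
    rw [mul_sub, hk, hk']
    ring
  have h7 : (0 : ℝ) < ((k - k' : ℤ) : ℝ) := by
    have h8 : 0 < (Nat.card G : ℝ) * ((k - k' : ℤ) : ℝ) := by
      rw [← h6]
      exact mul_pos hrpos (by linarith)
    exact (pos_iff_pos_of_mul_pos h8).1 hNpos
  have h8 : (1 : ℝ) ≤ ((k - k' : ℤ) : ℝ) := by
    have : 0 < k - k' := by exact_mod_cast h7
    exact_mod_cast this
  have h9 : (Nat.card G : ℝ) ≤ (r : ℝ) ^ m * (S - (sec y r).card) := by
    rw [h6]
    nlinarith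
  have h10 : (Nat.card G : ℝ) / r ^ m ≤ S - (sec y r).card := by
    rw [div_le_iff₀ hrpos]
    linarith
  linarith

/-- **The excess inequality** for sums over Galois-stable sets. -/
theorem excess_sums {χ : IrrCharacter G} {x : G} (h : One χ x) {ι : Type*} (s : Finset ι) (Y : ι → Finset G)
    (e : ι → ℝ) (hY : ∀ i ∈ s, H695.OneZero.Gal (Y i)) (hdis : ∀ i ∈ s, ∀ j ∈ s, i ≠ j → Disjoint (Y i) (Y j))
    (hx : ∀ i ∈ s, ∀ g ∈ Y i, ¬ IsConj x g)
    (hb : ∀ i ∈ s, ((Y i).card : ℝ) + e i ≤ ∑ g ∈ Y i, Complex.normSq ((χ : G → ℂ) g)) :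
    (cent x : ℝ) * ∑ i ∈ s, e i ≤ Nat.card G := by
  classical
  set U : Finset G := s.biUnion Y with hU
  have hUgal : H695.OneZero.Gal U := by
    intro g hg k hk
    rw [hU, Finset.mem_biUnion] at hg ⊢
    obtain ⟨i, hi, hgi⟩ := hg
    exact ⟨i, hi, hY i hi g hgi k hk⟩
  have hU0 : ∀ g ∈ U, (χ : G → ℂ) g ≠ 0 := by
    intro g hg h0
    rw [hU, Finset.mem_biUnion] at hg
    obtain ⟨i, hi, hgi⟩ := hg
    exact hx i hi g hgi (h.uniq g h0)
  have h1 := H695.OneZero.sum_le χ hUgal hU0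
  have h2 : ∑ g ∈ U, Complex.normSq ((χ : G → ℂ) g) = ∑ i ∈ s, ∑ g ∈ Y i, Complex.normSq ((χ : G → ℂ) g) := by
    rw [hU, Finset.sum_biUnion]
    exact fun i hi j hj hij => hdis i hi j hj hij
  have h3 : (U.card : ℝ) = ∑ i ∈ s, ((Y i).card : ℝ) := by
    rw [hU, Finset.card_biUnion fun i hi j hj hij => hdis i hi j hj hij]
    push_cast
    rfl
  have h4 : ∑ i ∈ s, (((Y i).card : ℝ) + e i) ≤ ∑ i ∈ s, ∑ g ∈ Y i, Complex.normSq ((χ : G → ℂ) g) :=
    Finset.sum_le_sum hb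
  rw [Finset.sum_add_distrib] at h4
  have h5 := card_zeros h
  have h6 : (((Finset.univ.filter fun g : G => (χ : G → ℂ) g = 0).card : ℕ) : ℝ) * cent x = Nat.card G := by
    exact_mod_cast h5
  have h7 : ∑ i ∈ s, e i ≤ ((Finset.univ.filter fun g : G => (χ : G → ℂ) g = 0).card : ℝ) := by linarith
  calc (cent x : ℝ) * ∑ i ∈ s, e i
      ≤ cent x * ((Finset.univ.filter fun g : G => (χ : G → ℂ) g = 0).card : ℝ) :=
        mul_le_mul_of_nonneg_left h7 (by positivity)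
    _ = Nat.card G := by rw [mul_comm, h6]

end sec

/-- **Sections.** `y i` rational `r i`-elements with disjoint sections not containing `x`, `r i ∣ χ(1)`:
`c ∑ 1 / |C(y i)|_(r i) ≤ 1`. -/
theorem secs {G : Type u} [Group G] [Finite G] {χ : IrrCharacter G} {x : G} (h : One χ x) {ι : Type*} (s : Finset ι)
    (y : ι → G) (r m : ι → ℕ) (hr : ∀ i ∈ s, (r i).Prime) (hy : ∀ i ∈ s, ∃ n, orderOf (y i) = r i ^ n)
    (hrat : ∀ i ∈ s, ∀ m : ℕ, m.Coprime (Nat.card G) → IsConj (y i ^ m) (y i))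
    (h1 : ∀ i ∈ s, r i ^ m i ∣ cent (y i)) (h2 : ∀ i ∈ s, ¬ r i ^ (m i + 1) ∣ cent (y i))
    (hd : ∀ i ∈ s, r i ∣ charDegree (χ : G → ℂ))
    (hx : ∀ i ∈ s, ∀ w u : G, IsConj (y i) w → Commute w u → ¬ r i ∣ orderOf u → ¬ IsConj x (w * u))
    (hdis : ∀ i ∈ s, ∀ j ∈ s, i ≠ j → ∀ w u w' u' : G, IsConj (y i) w → Commute w u → ¬ r i ∣ orderOf u →
      IsConj (y j) w' → Commute w' u' → ¬ r j ∣ orderOf u' → w * u ≠ w' * u') :
    (cent x : ℝ) * ∑ i ∈ s, ((r i : ℝ) ^ m i)⁻¹ ≤ 1 := by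
  classical
  have := Fintype.ofFinite G
  have hG : (0 : ℝ) < Nat.card G := by exact_mod_cast Nat.card_pos
  have hx' : ∀ i ∈ s, ∀ g ∈ sec (y i) (r i), ¬ IsConj x g := by
    intro i hi g hg
    obtain ⟨w, u, hw, hc, hu, rfl⟩ := mem_sec.1 hg
    exact hx i hi w u hw hc hu
  have h3 := excess_sums h s (fun i => sec (y i) (r i)) (fun i => (Nat.card G : ℝ) / (r i : ℝ) ^ m i)
    (fun i hi => gal_sec (hrat i hi) _) (fun i hi j hj hij => by
      rw [Finset.disjoint_left]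
      intro g hg hg'
      obtain ⟨w, u, hw, hc, hu, rfl⟩ := mem_sec.1 hg
      obtain ⟨w', u', hw', hc', hu', he⟩ := mem_sec.1 hg'
      exact hdis i hi j hj hij w u w' u' hw hc hu hw' hc' hu' he) hx'
    (fun i hi => sec_lower (hr i hi) (hy i hi) (hrat i hi) (h1 i hi) (h2 i hi) (hd i hi) (fun g hg h0 =>
      hx' i hi g hg (h.uniq g h0)))
  have h4 : ∑ i ∈ s, (Nat.card G : ℝ) / (r i : ℝ) ^ m i = Nat.card G * ∑ i ∈ s, ((r i : ℝ) ^ m i)⁻¹ := by
    rw [Finset.mul_sum]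
    exact Finset.sum_congr rfl fun i _ => div_eq_mul_inv _ _
  rw [h4] at h3
  have h5 : (Nat.card G : ℝ) * ((cent x : ℝ) * ∑ i ∈ s, ((r i : ℝ) ^ m i)⁻¹) ≤ Nat.card G * 1 := by
    rw [mul_one]
    linarith
  exact le_of_mul_le_mul_left h5 hG

/-- **One section.** -/
theorem one_sec {G : Type u} [Group G] [Finite G] {χ : IrrCharacter G} {x : G} (h : One χ x) {y : G} {r m : ℕ}
    (hr : r.Prime) (hy : ∃ n, orderOf y = r ^ n) (hrat : ∀ m : ℕ, m.Coprime (Nat.card G) → IsConj (y ^ m) y)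
    (h1 : r ^ m ∣ cent y) (h2 : ¬ r ^ (m + 1) ∣ cent y) (hd : r ∣ charDegree (χ : G → ℂ))
    (hx : ∀ w u : G, IsConj y w → Commute w u → ¬ r ∣ orderOf u → ¬ IsConj x (w * u)) : cent x ≤ r ^ m := by
  have h3 := secs h {()} (fun _ => y) (fun _ => r) (fun _ => m) (fun _ _ => hr) (fun _ _ => hy) (fun _ _ => hrat)
    (fun _ _ => h1) (fun _ _ => h2) (fun _ _ => hd) (fun _ _ => hx) (fun i _ j _ hij => absurd rfl hij)
  rw [Finset.sum_singleton] at h3
  have hrpos : (0 : ℝ) < (r : ℝ) ^ m := by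
    have := hr.pos
    positivity
  rw [← div_eq_mul_inv, div_le_one hrpos] at h3
  exact_mod_cast h3

end Cfsg.Agent.H604.OZ
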