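import Mathlib

/-!
# Centralizers of `p`-elements (helper604, for the sporadic rows of S4842)

`exists_conj_le`    : a `p`-subgroup is conjugate into a given Sylow `p`-subgroup `P`;
`pow_dvd_cent`      : `p ^ k ≤ |C_P(x)|` for all `x ∈ P`: `p ^ k ∣ |C_K(x)|` for all `p`-elements `x`;
`not_pow_dvd_cent`  : `|C_P(x)| < p ^ k` for all `x ∈ P` of order `o`: `p ^ k ∤ |C_K(x)|` for all `x` of order `o`;
`sq_dvd_cent`       : `p ^ 2 ∣ |K|`, `x` a `p`-element: `p ^ 2 ∣ |C_K(x)|`.
-/

set_option autoImplicit false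

namespace Cfsg.Agent.H604.OZ

open Subgroup

variable {K : Type*} [Group K]

/-- a `p`-subgroup is conjugate to a subgroup of a given Sylow subgroup -/
theorem exists_conj_le [Finite K] {p : ℕ} [Fact p.Prime] {P : Subgroup K} (hP : IsPGroup p P)
    (hi : ¬ p ∣ P.index) {T : Subgroup K} (hT : IsPGroup p T) : ∃ x : K, ∀ g ∈ T, x * g * x⁻¹ ∈ P := by
  obtain ⟨Q, hQ⟩ := hT.exists_le_sylow
  obtain ⟨x, hx⟩ := MulAction.exists_smul_eq K Q (hP.toSylow hi)
  refine ⟨x, fun g hg => ?_⟩
  have h2 : (Q : Subgroup K).map (MulAut.conj x).toMonoidHom = P :=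
    congrArg (fun S : Sylow p K => (S : Subgroup K)) hx
  rw [← h2]
  exact ⟨g, hQ hg, rfl⟩

theorem isPGroup_zpowers {p : ℕ} {x : K} {n : ℕ} (hx : orderOf x = p ^ n) : IsPGroup p (zpowers x) :=
  IsPGroup.of_card (n := n) (by rw [Nat.card_zpowers, hx])

/-- the order of the centralizer is a class function -/
theorem card_cent_conj (g x : K) :
    Nat.card (centralizer ({g * x * g⁻¹} : Set K)) = Nat.card (centralizer ({x} : Set K)) := by
  symm
  refine Nat.card_congr ((MulAut.conj g).toEquiv.subtypeEquiv fun a => ?_)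
  rw [mem_centralizer_singleton_iff, mem_centralizer_singleton_iff]
  change a * x = x * a ↔ g * a * g⁻¹ * (g * x * g⁻¹) = g * x * g⁻¹ * (g * a * g⁻¹)
  constructor
  · intro h
    calc g * a * g⁻¹ * (g * x * g⁻¹) = g * (a * x) * g⁻¹ := by group
      _ = g * (x * a) * g⁻¹ := by rw [h]
      _ = _ := by group
  · intro h
    calc a * x = g⁻¹ * (g * a * g⁻¹ * (g * x * g⁻¹)) * g := by group
      _ = g⁻¹ * (g * x * g⁻¹ * (g * a * g⁻¹)) * g := by rw [h]
      _ = x * a := by group

/-- all `p`-elements have a centralizer of order divisible by `p ^ k` -/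
theorem pow_dvd_cent [Finite K] {p : ℕ} [hp : Fact p.Prime] {P : Subgroup K} (hP : IsPGroup p P)
    (hi : ¬ p ∣ P.index) {k : ℕ} (h : ∀ x ∈ P, p ^ k ≤ Nat.card ↥(P ⊓ centralizer ({x} : Set K))) {x : K} {n : ℕ}
    (hx : orderOf x = p ^ n) : p ^ k ∣ Nat.card (centralizer ({x} : Set K)) := by
  obtain ⟨g, hg⟩ := exists_conj_le hP hi (isPGroup_zpowers hx)
  have h1 := hg x (mem_zpowers x)
  have h2 := h _ h1
  have h3 : IsPGroup p ↥(P ⊓ centralizer ({g * x * g⁻¹} : Set K)) := hP.to_le inf_le_left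
  obtain ⟨m, hm⟩ := IsPGroup.iff_card.1 h3
  rw [← card_cent_conj g x]
  refine Dvd.dvd.trans ?_ (card_dvd_of_le (inf_le_right (a := P)))
  rw [hm] at h2 ⊢
  exact pow_dvd_pow p ((Nat.pow_le_pow_iff_right hp.out.one_lt).1 h2)

/-- all elements of order `o` have a centralizer of order not divisible by `p ^ k` -/
theorem not_pow_dvd_cent [Finite K] {p : ℕ} [hp : Fact p.Prime] {P : Subgroup K} (hP : IsPGroup p P)
    (hi : ¬ p ∣ P.index) {k n : ℕ}
    (h : ∀ x ∈ P, orderOf x = p ^ n → Nat.card ↥(P ⊓ centralizer ({x} : Set K)) < p ^ k) {x : K}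
    (hx : orderOf x = p ^ n) : ¬ p ^ k ∣ Nat.card (centralizer ({x} : Set K)) := by
  intro hd
  -- a subgroup of order `p ^ k` of the centralizer
  obtain ⟨T, hT⟩ := Sylow.exists_subgroup_card_pow_prime p hd
  have hTp : IsPGroup p T := IsPGroup.of_card hT
  let T' : Subgroup K := T.map (centralizer ({x} : Set K)).subtype
  have hT' : IsPGroup p T' := hTp.map _
  have hTc : Nat.card T' = p ^ k := by
    rw [← hT]
    exact (Nat.card_congr (T.equivMapOfInjective _ (centralizer ({x} : Set K)).subtype_injective).toEquiv).symm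
  have hle : T' ≤ centralizer ({x} : Set K) := by
    rintro _ ⟨t, _, rfl⟩
    exact t.2
  have hnorm : zpowers x ≤ normalizer (T' : Set K) := by
    rw [zpowers_le, mem_normalizer_iff]
    intro g
    have h2 : ∀ t ∈ T', x * t * x⁻¹ = t := fun t ht => by
      rw [← mem_centralizer_singleton_iff.1 (hle ht), mul_inv_cancel_right]
    constructor
    · intro hg
      rwa [h2 g hg]
    · intro hg
      have h3 := h2 _ hg
      have h4 : x * g * x⁻¹ = g := mul_left_cancel (a := x) (mul_right_cancel (b := x⁻¹) h3)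
      rwa [h4] at hg
  have hsup : IsPGroup p ↥(zpowers x ⊔ T') := (isPGroup_zpowers hx).to_sup_of_normal_right' hT' hnorm
  obtain ⟨g, hg⟩ := exists_conj_le hP hi hsup
  have h1 := hg x (mem_sup_left (mem_zpowers x))
  have ho : orderOf (g * x * g⁻¹) = p ^ n := by
    rw [← hx]
    exact orderOf_injective (MulAut.conj g).toMonoidHom (MulAut.conj g).injective x
  have h2 := h _ h1 ho
  have h3 : T'.map (MulAut.conj g).toMonoidHom ≤ P ⊓ centralizer ({g * x * g⁻¹} : Set K) := by
    rintro _ ⟨t, ht, rfl⟩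
    refine ⟨hg t (mem_sup_right ht), mem_centralizer_singleton_iff.2 ?_⟩
    change g * t * g⁻¹ * (g * x * g⁻¹) = g * x * g⁻¹ * (g * t * g⁻¹)
    have h4 := mem_centralizer_singleton_iff.1 (hle ht)
    calc g * t * g⁻¹ * (g * x * g⁻¹) = g * (t * x) * g⁻¹ := by group
      _ = g * (x * t) * g⁻¹ := by rw [h4]
      _ = _ := by group
  have h4 : Nat.card ↥(T'.map (MulAut.conj g).toMonoidHom) = p ^ k := by
    rw [← hTc]
    exact (Nat.card_congr (T'.equivMapOfInjective _ (MulAut.conj g).injective).toEquiv).symm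
  have h5 := card_le_of_le h3
  rw [h4] at h5
  omega

/-- `p ^ 2` divides the order of the centralizer of a `p`-element -/
theorem sq_dvd_cent [Finite K] {p : ℕ} [hp : Fact p.Prime] (h2 : p ^ 2 ∣ Nat.card K) {x : K} {n : ℕ}
    (hx : orderOf x = p ^ n) (hx1 : x ≠ 1) : p ^ 2 ∣ Nat.card (centralizer ({x} : Set K)) := by
  let P : Sylow p K := default
  have hi : ¬ p ∣ (P : Subgroup K).index := P.not_dvd_index
  have hPc : p ^ 2 ∣ Nat.card (P : Subgroup K) := by
    have h3 := (P : Subgroup K).card_mul_index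
    rw [← h3] at h2
    exact (Nat.Coprime.pow_left 2 ((Nat.Prime.coprime_iff_not_dvd hp.out).2 hi)).dvd_of_dvd_mul_right h2
  obtain ⟨g, hg⟩ := exists_conj_le P.isPGroup' hi (isPGroup_zpowers hx)
  have h1 := hg x (mem_zpowers x)
  set y := g * x * g⁻¹ with hy
  have hy1 : y ≠ 1 := fun h => hx1 (by
    have h4 : x = g⁻¹ * y * g := by rw [hy]; group
    rw [h4, h]; group)
  rw [← card_cent_conj g x]
  have h3 : IsPGroup p ↥((P : Subgroup K) ⊓ centralizer ({y} : Set K)) := P.isPGroup'.to_le inf_le_left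
  obtain ⟨m, hm⟩ := IsPGroup.iff_card.1 h3
  refine Dvd.dvd.trans ?_ (card_dvd_of_le (inf_le_right (a := (P : Subgroup K))))
  rw [hm]
  refine pow_dvd_pow p ?_
  by_contra hlt
  have hm1 : m ≤ 1 := by omega
  -- the centre of `P` is generated by `y`
  have hPn : Nontrivial (P : Subgroup K) := by
    rw [← Finite.one_lt_card_iff_nontrivial]
    have := Nat.le_of_dvd Nat.card_pos hPc
    have h5 : 1 < p ^ 2 := Nat.one_lt_pow (by norm_num) hp.out.one_lt
    omega
  have hZ : Nontrivial (center (P : Subgroup K)) := P.isPGroup'.center_nontrivial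
  obtain ⟨z, hz⟩ := exists_ne (1 : center (P : Subgroup K))
  have hzp : ∀ t ∈ (P : Subgroup K), t * (z : K) = (z : K) * t := fun t ht => by
    have := (mem_center_iff.1 z.2) ⟨t, ht⟩
    exact congrArg Subtype.val this
  have hz1 : ((z : (P : Subgroup K)) : K) ≠ 1 := fun h => hz (Subtype.ext (Subtype.ext h))
  have hzC : ((z : (P : Subgroup K)) : K) ∈ (P : Subgroup K) ⊓ centralizer ({y} : Set K) :=
    ⟨(z : (P : Subgroup K)).2, mem_centralizer_singleton_iff.2 (hzp y h1).symm⟩
  have hyC : y ∈ (P : Subgroup K) ⊓ centralizer ({y} : Set K) := ⟨h1, mem_centralizer_singleton_iff.2 rfl⟩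
  -- the group of order `p` is generated by any nontrivial element
  have hcp : Nat.card ↥((P : Subgroup K) ⊓ centralizer ({y} : Set K)) = p := by
    rw [hm]
    have h6 : m ≠ 0 := by
      rintro rfl
      rw [pow_zero] at hm
      have h7 := (Subgroup.eq_bot_of_card_eq _ hm)
      rw [h7, mem_bot] at hyC
      exact hy1 hyC
    have h7 : m = 1 := by omega
    rw [h7, pow_one]
  have hgen : ∀ t : K, t ∈ (P : Subgroup K) ⊓ centralizer ({y} : Set K) → t ∈ zpowers ((z : (P : Subgroup K)) : K) := by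
    have h6 : zpowers ((z : (P : Subgroup K)) : K) = (P : Subgroup K) ⊓ centralizer ({y} : Set K) := by
      refine Subgroup.eq_of_le_of_card_ge (zpowers_le.2 hzC) ?_
      rw [hcp, Nat.card_zpowers]
      have h7 := orderOf_dvd_natCard (⟨_, hzC⟩ : ↥((P : Subgroup K) ⊓ centralizer ({y} : Set K)))
      rw [Subgroup.orderOf_mk, hcp] at h7
      rcases (Nat.dvd_prime hp.out).1 h7 with h8 | h8
      · exact absurd (orderOf_eq_one_iff.1 h8) hz1
      · omega
    intro t ht
    rw [h6]
    exact ht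
  obtain ⟨j, hj⟩ := mem_zpowers_iff.1 (hgen y hyC)
  have hPle : (P : Subgroup K) ≤ (P : Subgroup K) ⊓ centralizer ({y} : Set K) := by
    intro t ht
    refine ⟨ht, mem_centralizer_singleton_iff.2 ?_⟩
    rw [← hj]
    have h8 : Commute t ((z : (P : Subgroup K)) : K) := hzp t ht
    exact (h8.zpow_right j).eq
  have h9 := card_le_of_le hPle
  rw [hcp] at h9
  have h10 := Nat.le_of_dvd Nat.card_pos hPc
  have h11 : p < p ^ 2 := by
    have := hp.out.one_lt
    nlinarith
  omega

end Cfsg.Agent.H604.OZ
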